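import Mathlib
import Cfsg.Agent.H640.TD.Row
import Cfsg.Agent.H65.Disp.Tri

/-!
# `³D₄(2)`: the row for elements of order three (task 1210)
-/

set_option autoImplicit false

namespace Cfsg.Agent.H640.TD

open Cfsg Cfsg.Agent.H959.Rad3

/-- **`³D₄(2)`**: `RC x`, `Inv x` are contradictory for automorphisms of order three. -/
theorem irow_3d42 {K : Type*} [Group K] [Finite K] {F : Type} [Field F] [Fintype F]
    (hF : Fintype.card F = 8) (e : Nonempty (K ≃* ↥(Cfsg.Lie.twistedD4 F 2))) : IRow K := by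
  have hch : CharP F 2 := Cfsg.Agent.H967.CopSz.charP_of_card Nat.prime_two (n := 3) (by rw [hF]; norm_num)
  exact irow_of_fix hF e (Cfsg.Agent.H65.Disp.Tri.fixAt_twD4 (Nat.prime_two.isPrimePow) (by rw [hF]; norm_num) e)

end Cfsg.Agent.H640.TD
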